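import Mathlib

/-!
# The inequality `num` of the orthogonal rows of S2454 (helper889)
-/

set_option autoImplicit false

namespace Cfsg.Agent.H889.Og

/-- lower bound of the second base -/
theorem base_ge {q a : ℕ} (hq : 2 ≤ q) : q ^ (a + 1) ≤ (q - 1) * (q ^ (a + 1) + q ^ a) - 1 := by
  obtain ⟨m, rfl⟩ : ∃ m, q = m + 2 := ⟨q - 2, by omega⟩
  have h0 : m + 2 - 1 = m + 1 := rfl
  rw [h0]
  have h1 : 0 < (m + 2) ^ a := by positivity
  have h2 : (m + 2) ^ (a + 1) + 1 ≤ (m + 1) * ((m + 2) ^ (a + 1) + (m + 2) ^ a) := by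
    rw [pow_succ]
    generalize (m + 2) ^ a = X at h1
    have e1 : (m + 1) * (X * (m + 2) + X) = X * (m + 2) + X + (m * m * X + 3 * (m * X)) := by ring
    rw [e1]
    omega
  omega

theorem pow_lt_aux {x y A B : ℕ} (hx : x < A) (hy : B ≤ y) {k l : ℕ} (hk : k ≠ 0) (h : A ^ k ≤ B ^ l) :
    x ^ k < y ^ l :=
  calc x ^ k < A ^ k := Nat.pow_lt_pow_left hx hk
    _ ≤ B ^ l := h
    _ ≤ y ^ l := Nat.pow_le_pow_left hy l

/-- **NUM** (S2454, orthogonal groups) -/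
theorem num {n q r c : ℕ} (hn : 3 ≤ n) (hq : 2 ≤ q)
    (h : (r = 0 ∧ 4 ≤ n ∧ c = 1) ∨ (r = 1 ∧ 3 ≤ q ∧ c = 2) ∨ (r = 2 ∧ c = 4 * q)) :
    ((q ^ n - 1) * c - 1) ^ 7 < ((q - 1) * (q ^ (2 * n + r - 4) + q ^ (2 * n + r - 5)) - 1) ^ 10 := by
  have hq0 : 0 < q := by omega
  obtain ⟨a, ha⟩ : ∃ a, 2 * n + r - 5 = a := ⟨_, rfl⟩
  have ha1 : 2 * n + r - 4 = a + 1 := by omega
  rw [ha, ha1]
  have hb := base_ge (a := a) hq
  rcases h with ⟨hr, hn4, hc⟩ | ⟨hr, hq3, hc⟩ | ⟨hr, hc⟩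
  · subst hr hc
    refine pow_lt_aux (A := q ^ n) (B := q ^ (a + 1)) ?_ hb (by norm_num) ?_
    · have : 0 < q ^ n := by positivity
      omega
    · rw [← pow_mul, ← pow_mul]
      exact Nat.pow_le_pow_right hq0 (by omega)
  · subst hr hc
    refine pow_lt_aux (A := q ^ (n + 1)) (B := q ^ (a + 1)) ?_ hb (by norm_num) ?_
    · have h1 : 0 < q ^ n := by positivity
      have h2 : q ^ n * 3 ≤ q ^ (n + 1) := by rw [pow_succ]; exact Nat.mul_le_mul_left _ hq3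
      omega
    · rw [← pow_mul, ← pow_mul]
      exact Nat.pow_le_pow_right hq0 (by omega)
  · subst hr hc
    rcases hn.eq_or_lt with h3 | h4
    · subst h3
      have ha3 : a = 3 := by omega
      subst ha3
      -- `A = 4 q ^ 4`, `16 y ≥ 23 q ^ 4`
      have hx : (q ^ 3 - 1) * (4 * q) - 1 < 4 * q ^ 4 := by
        have h1 : (q ^ 3 - 1) * (4 * q) ≤ q ^ 3 * (4 * q) := Nat.mul_le_mul_right _ (Nat.sub_le _ _)
        have h2 : q ^ 3 * (4 * q) = 4 * q ^ 4 := by ring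
        have h3 : 0 < q ^ 4 := by positivity
        omega
      have hy : 23 * q ^ 4 ≤ 16 * ((q - 1) * (q ^ (3 + 1) + q ^ 3) - 1) := by
        obtain ⟨m, rfl⟩ : ∃ m, q = m + 2 := ⟨q - 2, by omega⟩
        have h0 : m + 2 - 1 = m + 1 := rfl
        rw [h0]
        have h2 : 23 * (m + 2) ^ 4 + 16 ≤ 16 * ((m + 1) * ((m + 2) ^ (3 + 1) + (m + 2) ^ 3)) := by
          ring_nf
          nlinarith [Nat.zero_le (m ^ 5), Nat.zero_le (m ^ 4), Nat.zero_le (m ^ 3), Nat.zero_le (m ^ 2), Nat.zero_le m]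
        omega
      set x := (q ^ 3 - 1) * (4 * q) - 1 with hxd
      set y := (q - 1) * (q ^ (3 + 1) + q ^ 3) - 1 with hyd
      have h1 : x ^ 7 < (4 * q ^ 4) ^ 7 := Nat.pow_lt_pow_left hx (by norm_num)
      have h2 : (23 * q ^ 4) ^ 10 ≤ (16 * y) ^ 10 := Nat.pow_le_pow_left hy 10
      have h3 : 16 ^ 10 * (4 * q ^ 4) ^ 7 ≤ (23 * q ^ 4) ^ 10 := by
        have e1 : 16 ^ 10 * (4 * q ^ 4) ^ 7 = (16 ^ 10 * 4 ^ 7) * q ^ 28 := by ring
        have e2 : (23 * q ^ 4) ^ 10 = (23 ^ 10 * q ^ 12) * q ^ 28 := by ring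
        rw [e1, e2]
        apply Nat.mul_le_mul_right
        have h4 : 2 ^ 12 ≤ q ^ 12 := Nat.pow_le_pow_left hq 12
        calc 16 ^ 10 * 4 ^ 7 ≤ 23 ^ 10 * 2 ^ 12 := by norm_num
          _ ≤ 23 ^ 10 * q ^ 12 := Nat.mul_le_mul_left _ h4
      have h5 : 16 ^ 10 * x ^ 7 < 16 ^ 10 * y ^ 10 := by
        calc 16 ^ 10 * x ^ 7 < 16 ^ 10 * (4 * q ^ 4) ^ 7 := Nat.mul_lt_mul_of_pos_left h1 (by norm_num)
          _ ≤ (23 * q ^ 4) ^ 10 := h3
          _ ≤ (16 * y) ^ 10 := h2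
          _ = 16 ^ 10 * y ^ 10 := by ring
      exact Nat.lt_of_mul_lt_mul_left h5
    · refine pow_lt_aux (A := q ^ (n + 3)) (B := q ^ (a + 1)) ?_ hb (by norm_num) ?_
      · have h1 : (q ^ n - 1) * (4 * q) ≤ q ^ n * (4 * q) := Nat.mul_le_mul_right _ (Nat.sub_le _ _)
        have h2 : q ^ n * (4 * q) ≤ q ^ (n + 3) := by
          have e1 : q ^ (n + 3) = q ^ n * (q ^ 2 * q) := by ring
          rw [e1]
          apply Nat.mul_le_mul_left
          apply Nat.mul_le_mul_right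
          nlinarith
        have h3 : 0 < q ^ (n + 3) := by positivity
        omega
      · rw [← pow_mul, ← pow_mul]
        exact Nat.pow_le_pow_right hq0 (by omega)

end Cfsg.Agent.H889.Og
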